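import Cfsg.Agent.H912.Bd4
import Cfsg.Agent.LieRecognition.ReeData
import Cfsg.Prelude.Def_Exceptional

/-!
# `Bd ℂ 3 (q (q - 1))` for `²G₂(q)` (helper212, for S4747)
-/

set_option autoImplicit false

universe v

namespace Cfsg.Agent.H212.Leon

open Cfsg.Agent.LieRecognition.ReeData

variable {F : Type v} [Field F] [Fintype F] {m : ℕ}

/-- `κ ↦ κ ^ (2 * 3 ^ (m + 1) + 3)` is injective on the units -/
theorem pow_inj (hF : Fintype.card F = 3 ^ (2 * m + 1)) {a b : Fˣ}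
    (h : a ^ (2 * 3 ^ (m + 1) + 3) = b ^ (2 * 3 ^ (m + 1) + 3)) : a = b := by
  have hcop : Nat.Coprime (2 * 3 ^ (m + 1) + 3) (Nat.card Fˣ) := by
    rw [Nat.card_units, Nat.card_eq_fintype_card, hF]
    have e : 2 * 3 ^ (m + 1) + 3 = 3 * (2 * 3 ^ m + 1) := by ring
    rw [e]
    set x := 3 ^ m with hx
    have hx1 : 1 ≤ x := Nat.one_le_pow _ _ (by norm_num)
    have e2 : 3 ^ (2 * m + 1) = 3 * x ^ 2 := by rw [hx]; ring
    have e4 : ((3 * x ^ 2 - 1 : ℕ) : ℤ) = 3 * (x : ℤ) ^ 2 - 1 := by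
      have : 1 ≤ 3 * x ^ 2 := by nlinarith [Nat.one_le_pow 2 x hx1]
      push_cast [this]
      ring
    have hc : IsCoprime (((2 * x + 1 : ℕ)) : ℤ) ((3 * x ^ 2 - 1 : ℕ) : ℤ) := by
      rw [e4]
      refine ⟨3 * (2 * (x : ℤ) - 1), -4, ?_⟩
      push_cast
      ring
    have hc3 : IsCoprime ((3 : ℕ) : ℤ) ((3 * x ^ 2 - 1 : ℕ) : ℤ) := by
      rw [e4]
      refine ⟨(x : ℤ) ^ 2, -1, ?_⟩
      push_cast
      ring
    rw [e2]
    exact Nat.Coprime.mul_left (Nat.isCoprime_iff_coprime.1 hc3) (Nat.isCoprime_iff_coprime.1 hc)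
  exact (powCoprime hcop.symm).injective (by
    rw [powCoprime_apply, powCoprime_apply]
    exact h)

theorem U_conj (hF : Fintype.card F = 3 ^ (2 * m + 1)) (t : F) (κ : Fˣ) (u w : F) :
    (U m t 0 0 * h hF κ) * U m 0 u w * (U m t 0 0 * h hF κ)⁻¹ =
      U m 0 ((κ : F) ^ (3 ^ (m + 1) + 3) * u)
        ((κ : F) ^ (2 * 3 ^ (m + 1) + 3) * w + (κ : F) ^ (3 ^ (m + 1) + 3) * u * t) := by
  rw [mul_inv_eq_iff_eq_mul]
  have h0 : (0 : F) ^ 3 ^ (m + 1) = 0 := zero_pow (pow_ne_zero _ (by norm_num))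
  rw [mul_assoc, h_U, ← mul_assoc, ← mul_assoc, U_mul hF, U_mul hF]
  congr 2
  · simp
  · simp [h0]
  · simp [h0]

/-- `E` -/
def E (hF : Fintype.card F = 3 ^ (2 * m + 1)) : Subgroup ↥(Cfsg.Lie.twistedG2 F (3 ^ m)) where
  carrier := {x | ∃ u w : F, U m 0 u w = x}
  mul_mem' := by
    rintro _ _ ⟨u, w, rfl⟩ ⟨u', w', rfl⟩
    refine ⟨u + u', w + w', ?_⟩
    have h0 : (0 : F) ^ 3 ^ (m + 1) = 0 := zero_pow (pow_ne_zero _ (by norm_num))
    rw [U_mul hF]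
    congr 1 <;> simp [h0]
  one_mem' := ⟨0, 0, U_zero hF⟩
  inv_mem' := by
    rintro _ ⟨u, w, rfl⟩
    refine ⟨-u, -w, ?_⟩
    have h0 : (0 : F) ^ 3 ^ (m + 1) = 0 := zero_pow (pow_ne_zero _ (by norm_num))
    rw [eq_inv_iff_mul_eq_one, U_mul hF, ← U_zero hF]
    congr 1 <;> simp [h0]

theorem U_add (hF : Fintype.card F = 3 ^ (2 * m + 1)) (u w u' w' : F) :
    U m 0 u w * U m 0 u' w' = U m 0 (u + u') (w + w') := by
  have h0 : (0 : F) ^ 3 ^ (m + 1) = 0 := zero_pow (pow_ne_zero _ (by norm_num))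
  rw [U_mul hF]
  congr 1 <;> simp [h0]

theorem U_neg (hF : Fintype.card F = 3 ^ (2 * m + 1)) (u w : F) : (U m 0 u w)⁻¹ = U m 0 (-u) (-w) := by
  symm
  rw [eq_inv_iff_mul_eq_one, U_add hF, ← U_zero hF]
  congr 1 <;> simp

theorem bd_ree (hm : 1 ≤ m) (hF : Fintype.card F = 3 ^ (2 * m + 1)) :
    Cfsg.Agent.H912.Bd.Bd ℂ 3 (Fintype.card F * (Fintype.card F - 1)) ↥(Cfsg.Lie.twistedG2 F (3 ^ m)) := by
  classical
  intro n hn
  have h3F : (3 : F) = 0 := by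
    obtain ⟨h3, -⟩ := Cfsg.Agent.ChevalleyStructure.ReeFixed.exists_theta hF
    exact_mod_cast h3
  have hEfin : Finite (E (F := F) (m := m) hF) := by
    refine Finite.of_surjective (fun p : F × F => (⟨U m 0 p.1 p.2, p.1, p.2, rfl⟩ : E (F := F) (m := m) hF)) ?_
    rintro ⟨_, u, w, rfl⟩
    exact ⟨(u, w), rfl⟩
  let s : F × Fˣ → ↥(Cfsg.Lie.twistedG2 F (3 ^ m)) := fun p => U m p.1 0 0 * h hF p.2
  have hsinj : Function.Injective s := by
    intro p p' hp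
    obtain ⟨e1, -, -, e2⟩ := inj₁ hF _ _ _ _ _ _ _ _ hp
    exact Prod.ext e1 e2
  have hcard : (Finset.univ.image s).card = Fintype.card F * (Fintype.card F - 1) := by
    rw [Finset.card_image_of_injective _ hsinj, Finset.card_univ, Fintype.card_prod, Fintype.card_units]
  rw [← hcard]
  refine hn.bound Nat.prime_three (by norm_num) (E hF) ?_ ?_ (e₀ := U m 0 0 1) ⟨0, 1, rfl⟩ ?_ _ ?_ ?_
  · rintro _ ⟨u, w, rfl⟩ _ ⟨u', w', rfl⟩
    rw [U_add hF, U_add hF, add_comm u, add_comm w]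
  · rintro ⟨_, u, w, rfl⟩
    refine ⟨1, Subtype.ext ?_⟩
    show U m 0 u w ^ 3 ^ 1 = 1
    rw [pow_one, pow_succ, pow_two, U_add hF, U_add hF, ← U_zero hF]
    congr 1
    · linear_combination u * h3F
    · linear_combination w * h3F
  · intro h1
    rw [← U_zero hF] at h1
    have h2 := inj₁ hF 0 0 1 1 0 0 0 1 (by rw [h1])
    exact one_ne_zero h2.2.2.1
  · intro x hx e he
    obtain ⟨p, -, rfl⟩ := Finset.mem_image.1 hx
    obtain ⟨u, w, rfl⟩ := he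
    exact ⟨_, _, (U_conj hF p.1 p.2 u w).symm⟩
  · intro x hx y hy hxy
    obtain ⟨⟨t, κ⟩, -, rfl⟩ := Finset.mem_image.1 hx
    obtain ⟨⟨t', κ'⟩, -, rfl⟩ := Finset.mem_image.1 hy
    by_cases hκ : κ = κ'
    · subst hκ
      have htt : t ≠ t' := by
        rintro rfl
        exact hxy rfl
      have hc : (κ : F) ^ (3 ^ (m + 1) + 3) ≠ 0 := pow_ne_zero _ κ.ne_zero
      have hd : t - t' ≠ 0 := sub_ne_zero.2 htt
      refine ⟨U m 0 (((κ : F) ^ (3 ^ (m + 1) + 3))⁻¹ * (t - t')⁻¹) 0, ⟨_, _, rfl⟩, ?_⟩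
      show (U m t 0 0 * h hF κ) * _ * (U m t 0 0 * h hF κ)⁻¹ *
        ((U m t' 0 0 * h hF κ) * _ * (U m t' 0 0 * h hF κ)⁻¹)⁻¹ = _
      rw [U_conj hF, U_conj hF, U_neg hF, U_add hF]
      congr 1
      · ring
      · field_simp
        ring
    · have hb : (κ : F) ^ (2 * 3 ^ (m + 1) + 3) - (κ' : F) ^ (2 * 3 ^ (m + 1) + 3) ≠ 0 := by
        intro h1
        apply hκ
        apply pow_inj hF
        apply Units.ext
        rw [Units.val_pow_eq_pow_val, Units.val_pow_eq_pow_val]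
        exact sub_eq_zero.1 h1
      refine ⟨U m 0 0 ((κ : F) ^ (2 * 3 ^ (m + 1) + 3) - (κ' : F) ^ (2 * 3 ^ (m + 1) + 3))⁻¹, ⟨_, _, rfl⟩, ?_⟩
      show (U m t 0 0 * h hF κ) * _ * (U m t 0 0 * h hF κ)⁻¹ *
        ((U m t' 0 0 * h hF κ') * _ * (U m t' 0 0 * h hF κ')⁻¹)⁻¹ = _
      rw [U_conj hF, U_conj hF, U_neg hF, U_add hF]
      congr 1
      · ring
      · field_simp
        ring

end Cfsg.Agent.H212.Leon
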